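import Cfsg.Agent.CharactersDeep.ExtGroup
import Mathlib.Data.Nat.Prime.Int
import Cfsg.Agent.FastGrp
import Cfsg.Agent.Prune
set_option linter.all false
prune_inst 0x7f00000000000000000000000000000000000000000000000000000000000000000000000000000000000000000000000000000000000000000000000000000000000000000000000000000000000000003fffffffffffffffffffffffffffbeffbdffffffff
open scoped Cfsg.Agent.FastGrp

/-!
# MO, types `A` and `²A`: fixed points on a torsor under a cyclic group (helper20)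

`exists_fix` : a group `V` normalises the cyclic group generated by `g` modulo `N` and permutes the orbit of `t₀` under
`g`.  If subgroups of index prime to `p` have fixed points, then `V` fixes a point `g ^ j • t₀` such that `g ^ j`
centralises, modulo `N`, the "Sylow 2-subgroup" `P` which fixes `t₀`.
-/

set_option autoImplicit false

namespace Cfsg.Agent.MO.TA.Gd

theorem odd_geom {e : ℤ} (he : Odd e) {m : ℕ} (hm : Odd m) : Odd (∑ i ∈ Finset.range m, e ^ i) := by
  obtain ⟨k, rfl⟩ := hm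
  induction k with
  | zero => simp
  | succ k ih =>
    rw [show 2 * (k + 1) + 1 = 2 * k + 1 + 1 + 1 by ring, Finset.sum_range_succ, Finset.sum_range_succ, add_assoc]
    exact ih.add_even (he.pow.add_odd he.pow)

theorem sum_coset {V R : Type} [Group V] [AddCommMonoid R] (D : Subgroup V) [Fintype (V ⧸ D)] {f : V → R}
    (hf : ∀ x, ∀ d ∈ D, f (x * d) = f x) (y : V) : ∑ q : V ⧸ D, f (y * q.out) = ∑ q : V ⧸ D, f q.out := by
  refine Fintype.sum_equiv (MulAction.toPerm y) _ _ fun q => ?_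
  have h : (y * q.out)⁻¹ * (y • q).out ∈ D := by
    rw [← QuotientGroup.eq, QuotientGroup.out_eq', ← smul_eq_mul, MulAction.Quotient.coe_smul_out]
  rw [MulAction.toPerm_apply, ← hf _ _ h, mul_inv_cancel_left]

/-- the arithmetic of the cocycle `b` -/
theorem arith {V : Type} [Group V] [Finite V] {n c : ℕ} (e b : V → ℤ)
    (he : ∀ x y, (e (x * y) : ZMod n) = e x * e y) (he1 : ∀ x, ∃ u : ℤ, (e x * u : ZMod c) = 1)
    (hb : ∀ x y, (b (x * y) : ZMod c) = e x * b y + b x) (he' : ∀ x y, (e (x * y) : ZMod c) = e x * e y)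
    (P : Subgroup V) (hP : ∀ y ∈ P, (b y : ZMod c) = 0) (hodd : ∀ x, ∃ m, Odd m ∧ x ^ m ∈ P)
    (N : Subgroup P) (hN : ∀ y ∈ N, (e y : ZMod n) = 1) {r : ℕ} (hr : N.index = 2 ^ r)
    (hs : ∀ p : ℕ, p.Prime → p ∣ c → ∃ D : Subgroup V, ¬ p ∣ D.index ∧ ∃ k : ℤ, ∀ x ∈ D, (e x * k + b x : ZMod c) = k) :
    ∃ j : ℤ, (∀ x, (e x * j + b x : ZMod c) = j) ∧ ∀ y ∈ P, (e y * j : ZMod n) = j := by
  classical
  let K : AddSubgroup ℤ :=
    { carrier := {m | ∃ j : ℤ, (∀ x, (e x * j + m * b x : ZMod c) = j) ∧ ∀ y ∈ P, (e y * j : ZMod n) = j}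
      zero_mem' := ⟨0, by simp, by simp⟩
      add_mem' := by
        rintro m m' ⟨j, h1, h2⟩ ⟨j', h1', h2'⟩
        refine ⟨j + j', fun x => ?_, fun y hy => ?_⟩
        · push_cast
          linear_combination h1 x + h1' x
        · push_cast
          linear_combination h2 y hy + h2' y hy
      neg_mem' := by
        rintro m ⟨j, h1, h2⟩
        refine ⟨-j, fun x => ?_, fun y hy => ?_⟩
        · push_cast
          linear_combination -h1 x
        · push_cast
          linear_combination -h2 y hy }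
  suffices h : (1 : ℤ) ∈ K by simpa only [K, _root_.AddSubgroup.mem_mk, _root_.AddSubmonoid.mem_mk, _root_.AddSubsemigroup.mem_mk, _root_.Set.mem_ofPred_eq, _root_.Int.cast_one, _root_.one_mul] using h
  refine CharactersDeep.ExtGroup.one_mem_of_forall_prime K fun p hp => ?_
  by_cases hpc : p ∣ c
  swap
  · exact ⟨c, ⟨0, by simp, by simp⟩, fun h => hpc (Int.natCast_dvd_natCast.1 h)⟩
  have := Fintype.ofFinite V
  by_cases hp2 : p = 2
  · subst hp2
    have h1 : ∀ x, ∃ s : ℤ, Odd s ∧ (s * b x : ZMod c) = 0 := fun x => by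
      obtain ⟨m, hm, hx⟩ := hodd x
      obtain ⟨u, hu⟩ := he1 x
      have h2 : ∀ i : ℕ, (b (x ^ i) : ZMod c) = (∑ k ∈ Finset.range i, e x ^ k : ℤ) * b x := fun i => by
        induction i with
        | zero => simpa only [_root_.pow_zero, _root_.Finset.range_zero, _root_.Finset.sum_empty, _root_.Int.cast_zero, _root_.MulZeroClass.zero_mul] using hP 1 (one_mem _)
        | succ i ih =>
          rw [pow_succ', hb, ih, Finset.sum_range_succ']
          simp only [pow_succ', ← Finset.mul_sum]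
          push_cast
          ring
      refine ⟨_, odd_geom (Int.not_even_iff_odd.1 fun h => ?_) hm, (h2 m).symm.trans (hP _ hx)⟩
      have h3 : ((e x * u - 1 : ℤ) : ZMod c) = 0 := by
        push_cast
        rw [hu, sub_self]
      have h4 := (Int.natCast_dvd_natCast.2 hpc).trans ((ZMod.intCast_zmod_eq_zero_iff_dvd _ _).1 h3)
      obtain ⟨a, ha⟩ := h.mul_right u
      omega
    choose s h2 h3 using h1
    refine ⟨∏ x, s x, ⟨0, fun x => ?_, by simp⟩, fun h => ?_⟩
    · rw [← Finset.mul_prod_erase _ _ (Finset.mem_univ x)]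
      push_cast
      linear_combination (∏ i ∈ Finset.univ.erase x, (s i : ZMod c)) * h3 x
    · obtain ⟨x, -, hx⟩ := (Prime.dvd_finsetProd_iff (Nat.prime_iff_prime_int.1 Nat.prime_two) _).1 h
      exact Int.not_even_iff_odd.2 (h2 x) (even_iff_two_dvd.2 hx)
  obtain ⟨D, h1, k, h2⟩ := hs p hp hpc
  have := Fintype.ofFinite (V ⧸ D)
  have := Fintype.ofFinite (P ⧸ N)
  let S : ℤ := ∑ q : V ⧸ D, (e q.out * k + b q.out)
  have h3 : ∀ y, (e y * S + D.index * b y : ZMod c) = S := fun y => by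
    have h := sum_coset D (f := fun x => (e x * k + b x : ZMod c))
      (fun x d hd => by rw [he', hb]; linear_combination e x * h2 d hd) y
    simp only [he', hb] at h
    rw [Subgroup.index_eq_card, Nat.card_eq_fintype_card, ← nsmul_eq_mul, ← Finset.card_univ, ← Finset.sum_const]
    push_cast [S]
    rw [Finset.mul_sum, ← Finset.sum_add_distrib, ← h]
    exact Finset.sum_congr rfl fun q _ => by ring
  let T : ℤ := ∑ q : P ⧸ N, e q.out
  have h4 : (T * S : ZMod c) = N.index * S := by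
    rw [Subgroup.index_eq_card, Nat.card_eq_fintype_card, ← nsmul_eq_mul, ← Finset.card_univ, ← Finset.sum_const]
    push_cast [T]
    rw [Finset.sum_mul]
    exact Finset.sum_congr rfl fun q _ => by simpa only [hP _ q.out.2, _root_.MulZeroClass.mul_zero, _root_.add_zero] using h3 q.out
  refine ⟨N.index * D.index, ⟨T * S, fun x => ?_, fun y hy => ?_⟩, fun h => ?_⟩
  · push_cast
    rw [h4]
    linear_combination N.index * h3 x
  · have h := sum_coset N (f := fun x => (e x : ZMod n))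
      (fun x d hd => by rw [Subgroup.coe_mul, he, hN d hd, mul_one]) ⟨y, hy⟩
    simp only [Subgroup.coe_mul, he, ← Finset.mul_sum] at h
    push_cast [T]
    rw [← mul_assoc, h]
  · rcases (Nat.Prime.dvd_mul hp).1 (Int.natCast_dvd_natCast.1 (by exact_mod_cast h)) with h | h
    · exact hp2 ((Nat.prime_dvd_prime_iff_eq hp Nat.prime_two).1 (hp.dvd_of_dvd_pow (hr ▸ h)))
    · exact h1 h

/-- **fixed points on the torsor** -/
theorem exists_fix {G T V : Type} [Group G] [Group V] [Finite V] [MulAction G T] (N : Subgroup G) [N.Normal]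
    (ι : V →* G) (g : G) (t : T) (hN : ∀ y ∈ N, y • t = t)
    (hcj : ∀ x, ∃ e : ℤ, ((ι x * g * (ι x)⁻¹ : G) : G ⧸ N) = (g : G ⧸ N) ^ e)
    (horb : ∀ x, ∃ b : ℤ, ι x • t = g ^ b • t) (P : Subgroup V) (hP : ∀ y ∈ P, ι y • t = t)
    (hodd : ∀ x, ∃ m, Odd m ∧ x ^ m ∈ P) {r : ℕ} (hr : (N.comap ι).relIndex P = 2 ^ r)
    (hs : ∀ p : ℕ, p.Prime → p ∣ MulAction.period g t →
      ∃ D : Subgroup V, ¬ p ∣ D.index ∧ ∃ k : ℤ, ∀ x ∈ D, ι x • g ^ k • t = g ^ k • t) :
    ∃ j : ℤ, (∀ x, ι x • g ^ j • t = g ^ j • t) ∧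
      ∀ y ∈ P, ((ι y * g ^ j * (ι y)⁻¹ : G) : G ⧸ N) = (g ^ j : G) := by
  choose e he using hcj
  choose b hb using horb
  have h1 : ∀ i j : ℤ, g ^ i • t = g ^ j • t ↔ (i : ZMod (MulAction.period g t)) = j := fun i j => by
    rw [ZMod.intCast_eq_intCast_iff_dvd_sub, ← MulAction.zpow_smul_eq_iff_period_dvd, sub_eq_neg_add, zpow_add, zpow_neg,
      mul_smul, inv_smul_eq_iff, eq_comm]
  have h2 : ∀ i j : ℤ, (g : G ⧸ N) ^ i = (g : G ⧸ N) ^ j ↔ (i : ZMod (orderOf (g : G ⧸ N))) = j := fun i j => by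
    rw [zpow_eq_zpow_iff_modEq, ZMod.intCast_eq_intCast_iff]
  have h3 : ∀ a a' : G, (a : G ⧸ N) = a' → a • t = a' • t := fun a a' h => by
    rw [← hN _ (QuotientGroup.eq.1 h), smul_smul, mul_inv_cancel_left, hN _ (QuotientGroup.eq.1 h)]
  have h4 : ∀ x (i : ℤ), ((ι x * g ^ i * (ι x)⁻¹ : G) : G ⧸ N) = (g : G ⧸ N) ^ (e x * i) := fun x i => by
    rw [← conj_zpow, QuotientGroup.mk_zpow, he, zpow_mul]
  have h5 : ∀ x (i : ℤ), ι x • g ^ i • t = g ^ (e x * i + b x) • t := fun x i => by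
    rw [zpow_add, mul_smul, ← hb, smul_smul, smul_smul]
    refine h3 _ _ ?_
    rw [QuotientGroup.mk_mul N (g ^ _), QuotientGroup.mk_zpow, ← h4, ← QuotientGroup.mk_mul, inv_mul_cancel_right]
  have h6 : ∀ x y, (g : G ⧸ N) ^ e (x * y) = (g : G ⧸ N) ^ (e x * e y) := fun x y => by
    rw [← he, ← h4, QuotientGroup.mk_mul N (ι x * g ^ e y), QuotientGroup.mk_mul N (ι x), QuotientGroup.mk_zpow, ← he,
      ← QuotientGroup.mk_mul, ← QuotientGroup.mk_mul, map_mul]
    congr 1
    group
  have h7 : ∀ i j : ℤ, (g : G ⧸ N) ^ i = (g : G ⧸ N) ^ j → (i : ZMod (MulAction.period g t)) = j := fun i j h =>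
    (h1 i j).1 (h3 _ _ (by rwa [QuotientGroup.mk_zpow, QuotientGroup.mk_zpow]))
  obtain ⟨j, h8, h9⟩ := arith (n := orderOf (g : G ⧸ N)) (c := MulAction.period g t) e b
    (fun x y => by simpa using (h2 _ _).1 (h6 x y))
    (fun x => ⟨e x⁻¹, by
      simpa only [_root_.Int.cast_mul, _root_.Int.cast_one] using h7 (e x * e x⁻¹) 1 (by rw [← h6, ← he, mul_inv_cancel, map_one, one_mul, inv_one, mul_one, zpow_one])⟩)
    (fun x y => by
      simpa only [_root_.Int.cast_add, _root_.Int.cast_mul] using (h1 (b (x * y)) (e x * b y + b x)).1 (by rw [← hb, map_mul, mul_smul, hb y, h5]))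
    (fun x y => by simpa using h7 _ _ (h6 x y)) P
    (fun y hy => by simpa using (h1 (b y) 0).1 (by rw [← hb, hP y hy, zpow_zero, one_smul])) hodd
    ((N.comap ι).subgroupOf P) (fun y hy => by
      simpa only [_root_.Int.cast_one] using (h2 (e y) 1).1 (by
        rw [← he, zpow_one, QuotientGroup.mk_mul, QuotientGroup.mk_mul, QuotientGroup.mk_inv,
          (QuotientGroup.eq_one_iff _).2 (show ι y ∈ N from hy), one_mul, inv_one, mul_one])) hr
    fun p hp h => by
      obtain ⟨D, h10, k, h11⟩ := hs p hp h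
      exact ⟨D, h10, k, fun x hx => by simpa using (h1 _ _).1 ((h5 x k).symm.trans (h11 x hx))⟩
  refine ⟨j, fun x => (h5 x j).trans ((h1 _ _).2 (by simpa using h8 x)), fun y hy => ?_⟩
  rw [h4, QuotientGroup.mk_zpow]
  exact (h2 _ _).2 (by simpa only [_root_.Int.cast_mul] using h9 y hy)

end Cfsg.Agent.MO.TA.Gd
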